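import Mathlib

/-! HK, package NUM: arithmetic (plans/HK.md). -/

set_option autoImplicit false

namespace CfsgLib.HK

theorem num_big {p a b w M : ℕ} (hM : 0 < M) (h1 : w ≤ a * b * M) (h2 : 2401 * p ^ 2 * M ≤ 14400 * w) :
    49 * p ≤ 60 * (a + b) := by
  have h3 : 2401 * p ^ 2 ≤ 14400 * (a * b) :=
    Nat.le_of_mul_le_mul_right (h2.trans (by rw [mul_assoc]; exact Nat.mul_le_mul_left _ h1)) hM
  refine (Nat.pow_le_pow_iff_left two_ne_zero).1 ?_
  nlinarith [sq_nonneg ((a : ℤ) - b)]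

theorem num_amgm {o k n : ℕ} (h : n ^ 2 ≤ 4 * (o * k)) : n ≤ o + k := by
  refine (Nat.pow_le_pow_iff_left two_ne_zero).1 ?_
  nlinarith [sq_nonneg ((o : ℤ) - k)]

theorem num_ok {o k w h z : ℕ} (h1 : w ≤ o * (z * h)) (h2 : z * (3 * h - 2) ≤ k * h) :
    w * (3 * h - 2) ≤ o * k * h ^ 2 :=
  calc w * (3 * h - 2) ≤ o * (z * h) * (3 * h - 2) := Nat.mul_le_mul_right _ h1
    _ = o * h * (z * (3 * h - 2)) := by ring
    _ ≤ o * h * (k * h) := Nat.mul_le_mul_left _ h2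
    _ = _ := by ring

theorem num_mid {p o k w h z : ℕ} (hp : 11 ≤ p) (h0 : 0 < h) (h1 : w ≤ o * (z * h)) (h2 : z * (3 * h - 2) ≤ k * h)
    (h3 : p ^ 3 - 1 ≤ w) (h4 : (p ^ 3 - 1) * h ≤ 216 * w) : 49 * p ≤ 60 * (o + k) := by
  have p2 : 121 ≤ p ^ 2 := by nlinarith
  have p3 : 11 * p ^ 2 ≤ p ^ 3 := by rw [pow_succ' p 2]; exact Nat.mul_le_mul_right _ hp
  by_cases c : h ≤ 60
  · have zk : z ≤ k := Nat.le_of_mul_le_mul_right ((Nat.mul_le_mul_left z (by omega)).trans h2) h0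
    refine num_big h0 (w := w) (h1.trans (by rw [mul_assoc]; gcongr)) ?_
    have : 2401 * p ^ 2 * h ≤ 2401 * p ^ 2 * 60 := Nat.mul_le_mul_left _ c
    omega
  have k1 := num_ok h1 h2
  have k2 : (p ^ 3 - 1) * (3 * h - 2) ≤ 216 * (o * k) * h := Nat.le_of_mul_le_mul_right (calc
    (p ^ 3 - 1) * (3 * h - 2) * h = (p ^ 3 - 1) * h * (3 * h - 2) := by ring
    _ ≤ 216 * w * (3 * h - 2) := Nat.mul_le_mul_right _ h4
    _ ≤ 216 * (o * k * h ^ 2) := by rw [mul_assoc]; exact Nat.mul_le_mul_left _ k1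
    _ = _ := by ring) h0
  have k3 : 181 * (p ^ 3 - 1) ≤ o * k * 13176 := Nat.le_of_mul_le_mul_right (calc
    181 * (p ^ 3 - 1) * h = (p ^ 3 - 1) * (181 * h) := by ring
    _ ≤ (p ^ 3 - 1) * (61 * (3 * h - 2)) := Nat.mul_le_mul_left _ (by omega)
    _ = 61 * ((p ^ 3 - 1) * (3 * h - 2)) := by ring
    _ ≤ 61 * (216 * (o * k) * h) := Nat.mul_le_mul_left _ k2
    _ = _ := by ring) h0
  obtain rfl | rfl | c : p = 11 ∨ p = 12 ∨ 13 ≤ p := by omega
  · have : 4 * (o * k) ≤ (o + k) ^ 2 := by nlinarith [sq_nonneg ((o : ℤ) - k)]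
    by_contra c
    have : (o + k) ^ 2 ≤ 8 ^ 2 := Nat.pow_le_pow_left (by omega) 2
    omega
  · have : 4 * (o * k) ≤ (o + k) ^ 2 := by nlinarith [sq_nonneg ((o : ℤ) - k)]
    by_contra c
    have : (o + k) ^ 2 ≤ 9 ^ 2 := Nat.pow_le_pow_left (by omega) 2
    omega
  · have p3 : 13 * p ^ 2 ≤ p ^ 3 := by rw [pow_succ' p 2]; exact Nat.mul_le_mul_right _ c
    exact num_big (by norm_num) k3 (by omega)

theorem num_twelve {p o k h z : ℕ} (hp : 11 ≤ p) (h0 : 0 < h) (h1 : p ^ 2 - 1 ≤ o * (z * h))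
    (h2 : z * (3 * h - 2) ≤ k * h) (h3 : h ≤ 12) : 49 * p ≤ 60 * (o + k) := by
  have p2 : 121 ≤ p ^ 2 := by nlinarith
  refine num_big (pow_pos h0 2) (num_ok h1 h2) ?_
  generalize p ^ 2 = P at *
  interval_cases h <;> omega

theorem num_s4 {p o k z : ℕ} (hp : 11 ≤ p) (hz : z ∣ p - 1) (h1 : p ^ 2 - 1 ≤ o * (z * 24)) (h2 : 4 * z ≤ k) :
    49 * p ≤ 60 * (o + k) := by
  obtain ⟨j, hj⟩ := hz
  obtain rfl : p = z * j + 1 := by omega
  have z0 : 0 < z := Nat.pos_of_ne_zero (by rintro rfl; omega)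
  have k1 : (z * j + 2) * j ≤ o * 24 := Nat.le_of_mul_le_mul_right (by
    have : (z * j + 1) ^ 2 = (z * j + 2) * j * z + 1 := by ring
    rw [this, Nat.add_sub_cancel] at h1
    rwa [mul_assoc o, mul_comm 24]) z0
  by_cases c : j ≤ 9
  · clear h1 hj
    by_cases c2 : z = 2
    · subst c2
      interval_cases j <;> omega
    · interval_cases j <;> omega
  obtain ⟨i, rfl⟩ : ∃ i, j = i + 10 := ⟨j - 10, by omega⟩
  nlinarith [Nat.zero_le (z * i), Nat.zero_le (z * i * i)]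

theorem num_geo {a b c d n : ℕ} (hab : a ≤ b) (h : c ≤ d) : c * a ^ n ≤ d * b ^ n :=
  Nat.mul_le_mul h (Nat.pow_le_pow_left hab n)

theorem num_imp {p o k c w M m s : ℕ} (hp : p.Prime) (h11 : 11 ≤ p) (hm : 2 ≤ m) (hM : 0 < M)
    (s1 : s ≤ m.factorial) (s2 : s ≤ 3 ^ (m - 1)) (h1 : w ^ m ≤ o * k * (s ^ 2 * M ^ m))
    (h2 : (w = p - 1 ∧ M = 1) ∨ (p ^ 2 - 1 ≤ w ∧ (p ^ 2 - 1) * M ≤ 24 * w))
    (h3 : 3 ≤ c ∨ w ^ m ≤ o * k * 36) : 49 * p ≤ 60 * (o + k + (m - 1) + c) := by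
  have rho : ∀ ρ, ρ ≤ p - 1 → 24 * ρ ≤ p ^ 2 - 1 → ρ ^ m ≤ o * k * s ^ 2 := fun ρ r1 r2 => by
    have : ρ * M ≤ w := by
      rcases h2 with ⟨rfl, rfl⟩ | ⟨-, h2⟩
      · omega
      · have := Nat.mul_le_mul_right M r2
        rw [mul_assoc] at this
        omega
    refine Nat.le_of_mul_le_mul_right ?_ (pow_pos hM m)
    rw [← mul_pow, mul_assoc]
    exact (Nat.pow_le_pow_left this m).trans h1
  have key : (p - 1) ^ 2 ≤ 4 * (o * k) → 49 * p ≤ 60 * (o + k + (m - 1) + c) := fun h => by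
    have := num_amgm h
    omega
  have s9 : s ^ 2 ≤ 9 ^ (m - 1) := by
    rw [show 9 = 3 ^ 2 from rfl, ← pow_mul, mul_comm, pow_mul]
    exact Nat.pow_le_pow_left s2 2
  have can : ∀ {x y ρ : ℕ}, 0 < ρ → ρ ^ m ≤ o * k * s ^ 2 → x * s ^ 2 ≤ y * ρ ^ m → x ≤ y * (o * k) :=
    fun {x y ρ} r0 r h => by
      have s0 : 0 < s ^ 2 := Nat.pos_of_ne_zero fun e => by
        rw [e, mul_zero] at r
        exact absurd (pow_pos r0 m) (by omega)
      refine Nat.le_of_mul_le_mul_right (h.trans ?_) s0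
      rw [mul_assoc]
      exact Nat.mul_le_mul_left _ r
  by_cases c23 : 23 ≤ p
  · obtain ⟨ρ, rfl⟩ : ∃ ρ, p = ρ + 1 := ⟨p - 1, by omega⟩
    rw [Nat.add_sub_cancel] at key
    refine key (can (by omega) (rho ρ (by omega) (by
      rw [show (ρ + 1) ^ 2 = (ρ + 2) * ρ + 1 by ring, Nat.add_sub_cancel]
      exact Nat.mul_le_mul_right _ (by omega))) ?_)
    obtain rfl | h : m = 2 ∨ 3 ≤ m := by omega
    · rw [mul_comm]
      exact Nat.mul_le_mul_right _ (Nat.pow_le_pow_left s1 2)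
    · obtain ⟨n, rfl⟩ : ∃ n, m = n + 3 := ⟨m - 3, by omega⟩
      calc ρ ^ 2 * s ^ 2 ≤ ρ ^ 2 * (81 * 9 ^ n) := Nat.mul_le_mul_left _ (s9.trans (by
            rw [show n + 3 - 1 = 2 + n by omega, pow_add]; norm_num))
        _ ≤ ρ ^ 2 * (4 * ρ * ρ ^ n) := Nat.mul_le_mul_left _ (num_geo (by omega) (by omega))
        _ = _ := by ring
  rcases h3 with h3 | h3
  swap
  · have big : (p - 1) ^ 2 * 9 ≤ w ^ m → 49 * p ≤ 60 * (o + k + (m - 1) + c) := fun h => key (by omega)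
    rcases h2 with ⟨rfl, rfl⟩ | ⟨h2, -⟩
    · obtain rfl | h : m = 2 ∨ 3 ≤ m := by omega
      · refine key (h1.trans ?_)
        rw [one_pow, mul_one, mul_comm]
        exact Nat.mul_le_mul_right _ (Nat.pow_le_pow_left s1 2)
      · refine big (le_trans ?_ (Nat.pow_le_pow_right (by omega) h))
        rw [pow_succ _ 2]
        exact Nat.mul_le_mul_left _ (by omega)
    · have : (p - 1) * 3 ≤ w := le_trans (by
        obtain ⟨ρ, rfl⟩ : ∃ ρ, p = ρ + 1 := ⟨p - 1, by omega⟩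
        rw [show (ρ + 1) ^ 2 = ρ * (ρ + 2) + 1 by ring, Nat.add_sub_cancel, Nat.add_sub_cancel]
        exact Nat.mul_le_mul_left _ (by omega)) h2
      refine big (le_trans ?_ (Nat.pow_le_pow_right (by omega) hm))
      rw [show 9 = 3 ^ 2 from rfl, ← mul_pow]
      exact Nat.pow_le_pow_left this 2
  have am : 4 * (o * k) ≤ (o + k) ^ 2 := by nlinarith [sq_nonneg ((o : ℤ) - k)]
  have fin : ∀ {ρ : ℕ} (n S : ℕ), ρ ^ m ≤ o * k * s ^ 2 → s ≤ S → n ^ 2 * S ^ 2 < 4 * ρ ^ m → n < o + k :=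
    fun {ρ} n S r hs h => by
      by_contra c
      have a : (o + k) ^ 2 ≤ n ^ 2 := Nat.pow_le_pow_left (by omega) 2
      have := Nat.mul_le_mul (am.trans a) (Nat.pow_le_pow_left hs 2)
      rw [mul_assoc] at this
      omega
  have pos : ∀ {ρ : ℕ}, 0 < ρ → ρ ^ m ≤ o * k * s ^ 2 → 2 ≤ o + k := fun {ρ} r0 r => by
    have := (pow_pos r0 m).trans_le r
    have := Nat.pos_of_mul_pos_right this
    have a := Nat.pos_of_mul_pos_right this
    have b := Nat.pos_of_mul_pos_left this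
    omega
  by_cases c17 : 17 ≤ p
  · have p2 : 17 ^ 2 ≤ p ^ 2 := Nat.pow_le_pow_left c17 2
    have r := rho 12 (by omega) (by omega)
    have : p ≤ 19 := by
      by_contra c
      obtain rfl | rfl | rfl : p = 20 ∨ p = 21 ∨ p = 22 := by omega
      all_goals norm_num at hp
    have : 11 < o + k := by
      by_cases c : m ≤ 4
      · interval_cases m <;> exact fin 11 _ r s1 (by norm_num [Nat.factorial])
      obtain ⟨n, rfl⟩ : ∃ n, m = n + 5 := ⟨m - 5, by omega⟩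
      have := can (x := 36) (y := 1) (by norm_num) r (calc
        36 * s ^ 2 ≤ 36 * (9 ^ 4 * 9 ^ n) := Nat.mul_le_mul_left _ (s9.trans (by
            rw [show n + 5 - 1 = 4 + n by omega, pow_add]))
        _ = 36 * 9 ^ 4 * 9 ^ n := by ring
        _ ≤ 12 ^ 5 * 12 ^ n := num_geo (by norm_num) (by norm_num)
        _ = _ := by ring)
      have := num_amgm (n := 12) (o := o) (k := k) (by omega)
      omega
    omega
  obtain rfl | rfl : p = 11 ∨ p = 13 := by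
    by_contra c
    obtain rfl | rfl | rfl | rfl : p = 12 ∨ p = 14 ∨ p = 15 ∨ p = 16 := by omega
    all_goals norm_num at hp
  · have r := rho 5 (by norm_num) (by norm_num)
    have := pos (by norm_num) r
    by_cases c : m ≤ 4
    · interval_cases m
      · have := fin 4 _ r s1 (by norm_num [Nat.factorial]); omega
      · have := fin 3 _ r s1 (by norm_num [Nat.factorial]); omega
      · have := fin 2 _ r s1 (by norm_num [Nat.factorial]); omega
    · omega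
  · have r := rho 7 (by norm_num) (by norm_num)
    have := pos (by norm_num) r
    by_cases c : m ≤ 6
    · interval_cases m
      · have := fin 6 _ r s1 (by norm_num [Nat.factorial]); omega
      · have := fin 5 _ r s1 (by norm_num [Nat.factorial]); omega
      · have := fin 4 _ r s1 (by norm_num [Nat.factorial]); omega
      · have := fin 3 _ r s2 (by norm_num); omega
      · have := fin 2 _ r s2 (by norm_num); omega
    · omega

theorem num_eight (n : ℕ) : (n + 4) ^ 8 ≤ 11 * (n + 3) ^ 8 := by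
  have : (3 * (n + 4)) ^ 8 ≤ (4 * (n + 3)) ^ 8 := Nat.pow_le_pow_left (by omega) 8
  rw [mul_pow, mul_pow] at this
  omega

theorem num_pw {b c : ℕ} (h : (b + 3) ^ 8 ≤ c) (n : ℕ) : (n + b + 3) ^ 8 ≤ c * 11 ^ n := by
  induction n with
  | zero => simpa using h
  | succ n ih =>
    have := num_eight (n + b)
    rw [show n + 1 + b + 3 = n + b + 4 by omega, pow_succ 11, ← mul_assoc]
    omega

theorem num_sq (n : ℕ) : (n + 2) ^ 2 ≤ 4 * 11 ^ n := by
  induction n with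
  | zero => simp
  | succ n ih =>
    have : (n + 1 + 2) ^ 2 ≤ 11 * (n + 2) ^ 2 := by nlinarith [Nat.zero_le (n * n)]
    rw [pow_succ 11]
    omega

theorem num_comp {p a d e t f : ℕ} (hp : 11 ≤ p) (ha : 1 ≤ a) (he : 1 ≤ e) (hd : e ≤ d) (hf : f ≤ a)
    (h2 : 2 ≤ a * d) (t1 : e = 1 → t ≤ 1) (t2 : Squarefree e → 1 < e → t ≤ (e ^ 2 - 1) * e)
    (t4 : e = 4 → t ≤ 144) (t6 : t ≤ e ^ 6) :
    2401 * p ^ 2 * (e ^ 2 * t * f * f) ≤ 14400 * (p ^ (a * d) - 1) ∨
      (a = 1 ∧ 3 ≤ d ∧ (p ^ 3 - 1) * (e ^ 2 * t) ≤ 216 * (p ^ d - 1)) ∨ (a = 1 ∧ d = 2 ∧ e = 2) := by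
  have p2 : 121 ≤ p ^ 2 := by nlinarith
  have one : ∀ n, n + 2 ≤ a * d → e ^ 2 * t * a ^ 2 ≤ 5 * 11 ^ n →
      2401 * p ^ 2 * (e ^ 2 * t * f * f) ≤ 14400 * (p ^ (a * d) - 1) := fun n hn h => by
    have k1 : e ^ 2 * t * f * f ≤ 5 * p ^ n := by
      refine le_trans ?_ (h.trans (num_geo hp le_rfl))
      rw [mul_assoc, ← pow_two]
      exact Nat.mul_le_mul_left _ (Nat.pow_le_pow_left hf 2)
    have k2 : p ^ 2 * p ^ n ≤ p ^ (a * d) := by
      rw [← pow_add]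
      exact Nat.pow_le_pow_right (by omega) (by omega)
    have k3 : p ^ 2 ≤ p ^ (a * d) := Nat.pow_le_pow_right (by omega) h2
    have k4 := Nat.mul_le_mul_left (2401 * p ^ 2) k1
    rw [show 2401 * p ^ 2 * (5 * p ^ n) = 12005 * (p ^ 2 * p ^ n) by ring] at k4
    omega
  have two : ∀ n, n + 3 ≤ d → e ^ 2 * t ≤ 216 * 11 ^ n → (p ^ 3 - 1) * (e ^ 2 * t) ≤ 216 * (p ^ d - 1) :=
    fun n hn h => by
      have k1 := Nat.mul_le_mul_left (p ^ 3 - 1) (h.trans (num_geo hp le_rfl))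
      have k2 : p ^ 3 * p ^ n ≤ p ^ d := by
        rw [← pow_add]
        exact Nat.pow_le_pow_right (by omega) (by omega)
      have k3 : 0 < p ^ n := pow_pos (by omega) n
      refine k1.trans ?_
      rw [mul_left_comm, Nat.sub_mul, one_mul]
      omega
  have ad : a * e ≤ a * d := Nat.mul_le_mul_left a hd
  obtain rfl | ha : a = 1 ∨ 2 ≤ a := by omega
  · obtain rfl | rfl | he : e = 1 ∨ e = 2 ∨ 3 ≤ e := by omega
    · exact Or.inl (one 0 h2 (by have := t1 rfl; omega))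
    · have := t2 Nat.prime_two.prime.squarefree one_lt_two
      by_cases c : d = 2
      · exact Or.inr (Or.inr ⟨rfl, c, rfl⟩)
      · exact Or.inl (one 1 (by omega) (by omega))
    refine Or.inr (Or.inl ⟨rfl, he.trans hd, ?_⟩)
    by_cases c : e ≤ 7
    · interval_cases e
      · have := t2 Nat.prime_three.prime.squarefree (by norm_num)
        exact two 0 hd (by omega)
      · have := t4 rfl
        exact two 1 hd (by omega)
      · have := t2 Nat.prime_five.prime.squarefree (by norm_num)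
        exact two 2 hd (by omega)
      · have := t2 (by decide +kernel) (by norm_num)
        exact two 3 hd (by omega)
      · have := t2 (by decide +kernel) (by norm_num)
        exact two 4 hd (by omega)
    obtain ⟨n, rfl⟩ : ∃ n, e = n + 5 + 3 := ⟨e - 8, by omega⟩
    refine two (5 + n) (by omega) ((Nat.mul_le_mul_left _ t6).trans ?_)
    rw [← pow_add, pow_add 11, ← mul_assoc]
    exact num_pw (b := 5) (by norm_num) n
  obtain ⟨b, rfl⟩ : ∃ b, a = b + 2 := ⟨a - 2, by omega⟩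
  have sq := num_sq b
  obtain rfl | rfl | he : e = 1 ∨ e = 2 ∨ 3 ≤ e := by omega
  · have := Nat.mul_le_mul (t1 rfl) sq
    exact Or.inl (one b (by omega) (by rw [one_pow, one_mul]; omega))
  · have := Nat.mul_le_mul (t2 Nat.prime_two.prime.squarefree one_lt_two) sq
    exact Or.inl (one (b + 2) (by omega) (by rw [mul_assoc, pow_add 11]; omega))
  obtain ⟨n, rfl⟩ : ∃ n, e = n + 0 + 3 := ⟨e - 3, by omega⟩
  refine Or.inl (one (n + b + 4) (le_trans (by nlinarith [Nat.zero_le (n * b)]) ad) ?_)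
  have k : (n + 0 + 3) ^ 2 * t ≤ 6561 * 11 ^ n := (Nat.mul_le_mul_left _ t6).trans (by
    rw [← pow_add]; exact num_pw (b := 0) (c := 6561) (by norm_num) n)
  refine (Nat.mul_le_mul k sq).trans ?_
  rw [pow_add, pow_add, show 6561 * 11 ^ n * (4 * 11 ^ b) = 26244 * (11 ^ n * 11 ^ b) by ring]
  omega

end CfsgLib.HK
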